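import Cfsg.Agent.H927.F4Two

/-!
# The fixed vectors of an element of order dividing `q⁴ − q² + 1` of `F₄(q)`, `q` even (helper39, for S3938)

`ev_two` : such an element `≠ 1` has a fixed space of dimension 2 on both modules `rhoT b` of dimension 26.
-/

set_option autoImplicit false

namespace Cfsg.Agent.H39.F4E

open Cfsg Cfsg.Lie Module
open Cfsg.Agent.ChevalleyStructure Cfsg.Agent.ChevalleyStructure.Elts Cfsg.Agent.ChevalleyStructure.RootVecTab
open Cfsg.Agent.ChevalleyStructure.RootVec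
open Cfsg.Agent.GpExc.Field (emb coe_emb coe_glMap emb_injective)
open Cfsg.Agent.BpExc.TorAll Cfsg.Agent.BpExc.TorChev
open Cfsg.Agent.Tits.Roots Cfsg.Agent.Nodes.BNOf Cfsg.Agent.Nodes.RGDChev Cfsg.Agent.KFacts.RgdChevCoord
open Cfsg.Agent.H952.F4 Cfsg.Agent.H952.F4.TabNum Cfsg.Agent.H952.F4.TabLin Cfsg.Agent.H952.F4.TabMult
open Cfsg.Agent.ChevalleyStructure.CoxeterGeom Cfsg.Agent.ChevalleyStructure.CoxeterGeomTypes
  Cfsg.Agent.Nodes.Reps
open Cfsg.Agent.H412.OT (pr chi)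
open Cfsg.Agent.ChevalleyStructure.NPerm (permHom)
open Cfsg.Agent.H969.TwF (sh)
open Cfsg.Agent.H927.F4Two

universe u

/-! ### tables -/

/-- the row of a root -/
def rw4 (s : Fin 48) : ℕ × ℕ × ℕ × ℕ := rowsL.getD s.val (8, 8, 8, 8)

/-- `γ = β + α` -/
def addR (b a c : ℕ × ℕ × ℕ × ℕ) : Bool :=
  Nat.beq (c.1 + 8) (b.1 + a.1) && Nat.beq (c.2.1 + 8) (b.2.1 + a.2.1) && Nat.beq (c.2.2.1 + 8) (b.2.2.1 + a.2.2.1) &&
    Nat.beq (c.2.2.2 + 8) (b.2.2.2 + a.2.2.2)

/-- `β ± α` is a root of the same length as `α` -/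
def nb (a b : Fin 48) : Bool :=
  (sh b.val == sh a.val) && (List.finRange 48).any fun c => (sh c.val == sh a.val) && !(Nat.beq c.val b.val) &&
    (addR (rw4 b) (rw4 a) (rw4 c) || addR (rw4 c) (rw4 a) (rw4 b))

theorem nb_card : ∀ a : Fin 48, 13 ≤ (Finset.univ.filter fun b : Fin 48 => nb a b = true).card := by
  decide +kernel

theorem sh_card : ∀ t : Bool, (Finset.univ.filter fun b : Fin 48 => sh b.val = t).card = 24 := by
  decide +kernel

/-- `2 s` or `s` is a sum of two roots of type `t` -/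
def two (s r r' : ℕ × ℕ × ℕ × ℕ) : Bool :=
  (Nat.beq (s.1 + 8) (r.1 + r'.1) && Nat.beq (s.2.1 + 8) (r.2.1 + r'.2.1) && Nat.beq (s.2.2.1 + 8) (r.2.2.1 + r'.2.2.1) &&
    Nat.beq (s.2.2.2 + 8) (r.2.2.2 + r'.2.2.2)) ||
  (Nat.beq (2 * s.1) (r.1 + r'.1) && Nat.beq (2 * s.2.1) (r.2.1 + r'.2.1) && Nat.beq (2 * s.2.2.1) (r.2.2.1 + r'.2.2.1) &&
    Nat.beq (2 * s.2.2.2) (r.2.2.2 + r'.2.2.2))

theorem two_all : ([true, false].all fun t => (List.finRange 48).all fun s => (List.finRange 48).any fun r =>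
    (sh r.val == t) && (List.finRange 48).any fun r' => (sh r'.val == t) && two (rw4 s) (rw4 r) (rw4 r')) = true := by
  decide +kernel

/-! ### the values of the roots -/

variable {K : Type u} [Field K]

/-- the value of a root -/
def cv (z : Kˣ) (a : Fin 4 → ℕ) (s : Fin 48) : Kˣ := val z a (rw4 s)

theorem cv_add (z : Kˣ) (a : Fin 4 → ℕ) {b c d : Fin 48} (h : addR (rw4 b) (rw4 c) (rw4 d) = true) :
    cv z a d = cv z a b * cv z a c := by
  unfold addR at h
  simp only [Bool.and_eq_true, Nat.beq_eq] at h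
  obtain ⟨⟨⟨h1, h2⟩, h3⟩, h4⟩ := h
  unfold cv val
  rw [← zpow_add]
  congr 1
  have e1 : (((rw4 d).1 : ℕ) : ℤ) + 8 = (rw4 b).1 + (rw4 c).1 := by exact_mod_cast h1
  have e2 : (((rw4 d).2.1 : ℕ) : ℤ) + 8 = (rw4 b).2.1 + (rw4 c).2.1 := by exact_mod_cast h2
  have e3 : (((rw4 d).2.2.1 : ℕ) : ℤ) + 8 = (rw4 b).2.2.1 + (rw4 c).2.2.1 := by exact_mod_cast h3
  have e4 : (((rw4 d).2.2.2 : ℕ) : ℤ) + 8 = (rw4 b).2.2.2 + (rw4 c).2.2.2 := by exact_mod_cast h4
  linear_combination (a 0 : ℤ) * e1 + (a 1 : ℤ) * e2 + (a 2 : ℤ) * e3 + (a 3 : ℤ) * e4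

theorem cv_two (z : Kˣ) (a : Fin 4 → ℕ) {b c d : Fin 48} (h : two (rw4 d) (rw4 b) (rw4 c) = true)
    (hb : cv z a b = 1) (hc : cv z a c = 1) : cv z a d ^ 2 = 1 := by
  unfold two at h
  simp only [Bool.or_eq_true, Bool.and_eq_true, Nat.beq_eq] at h
  rcases h with ⟨⟨⟨h1, h2⟩, h3⟩, h4⟩ | ⟨⟨⟨h1, h2⟩, h3⟩, h4⟩
  · have h5 : addR (rw4 b) (rw4 c) (rw4 d) = true := by
      unfold addR
      simp only [Bool.and_eq_true, Nat.beq_eq]
      exact ⟨⟨⟨h1, h2⟩, h3⟩, h4⟩
    rw [cv_add z a h5, hb, hc, one_mul, one_pow]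
  · have h5 : cv z a d ^ 2 = cv z a b * cv z a c := by
      unfold cv val
      rw [← zpow_natCast, ← zpow_mul, ← zpow_add]
      congr 1
      have e1 : 2 * (((rw4 d).1 : ℕ) : ℤ) = (rw4 b).1 + (rw4 c).1 := by exact_mod_cast h1
      have e2 : 2 * (((rw4 d).2.1 : ℕ) : ℤ) = (rw4 b).2.1 + (rw4 c).2.1 := by exact_mod_cast h2
      have e3 : 2 * (((rw4 d).2.2.1 : ℕ) : ℤ) = (rw4 b).2.2.1 + (rw4 c).2.2.1 := by exact_mod_cast h3
      have e4 : 2 * (((rw4 d).2.2.2 : ℕ) : ℤ) = (rw4 b).2.2.2 + (rw4 c).2.2.2 := by exact_mod_cast h4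
      push_cast
      linear_combination (a 0 : ℤ) * e1 + (a 1 : ℤ) * e2 + (a 2 : ℤ) * e3 + (a 3 : ℤ) * e4
    rw [h5, hb, hc, one_mul]

theorem cv_pow (z : Kˣ) (a : Fin 4 → ℕ) {m : ℕ} (hz : orderOf z = m) (s : Fin 48) : cv z a s ^ m = 1 := by
  unfold cv val
  rw [← zpow_natCast, ← zpow_mul, mul_comm, zpow_mul, zpow_natCast, ← hz, pow_orderOf_eq_one, one_zpow]

theorem cv_one_of (z : Kˣ) (a : Fin 4 → ℕ) {m : ℕ} (hz : orderOf z = m) (hm : m.Coprime 2) {t : Bool}
    (h : ∀ s : Fin 48, sh s.val = t → cv z a s = 1) (s : Fin 48) : cv z a s = 1 := by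
  have h1 := two_all
  rw [List.all_eq_true] at h1
  have h2 := h1 t (by cases t <;> simp)
  rw [List.all_eq_true] at h2
  have h3 := h2 s (List.mem_finRange s)
  rw [List.any_eq_true] at h3
  obtain ⟨r, -, h4⟩ := h3
  rw [Bool.and_eq_true, beq_iff_eq, List.any_eq_true] at h4
  obtain ⟨hr, r', -, h5⟩ := h4
  rw [Bool.and_eq_true, beq_iff_eq] at h5
  have h6 := cv_two z a h5.2 (h r hr) (h r' h5.1)
  have h7 := cv_pow z a hz s
  have h8 := orderOf_dvd_of_pow_eq_one h6
  have h9 := orderOf_dvd_of_pow_eq_one h7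
  have h10 : orderOf (cv z a s) = 1 := Nat.dvd_one.1 (by rw [← hm]; exact Nat.dvd_gcd h9 h8)
  exact orderOf_eq_one_iff.1 h10

/-! ### the combinatorial core -/

/-- The roots of a given length on which `c` is trivial: none. -/
theorem core (z : Kˣ) (a : Fin 4 → ℕ) {r q : ℕ} (hz : orderOf z = r) (hr : r.Prime) (hr2 : r.Coprime 2)
    (hq : ∀ i < 12, ∀ j < 12, q ^ i ≡ q ^ j [MOD r] → i = j) (w : Fin 48 → Fin 48) (hwi : Function.Injective w)
    (hws : ∀ s, sh (w s).val = sh s.val) (hwc : ∀ s, cv z a (w s) = cv z a s ^ q)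
    (hne : ∃ s, cv z a s ≠ 1) (t : Bool) (s : Fin 48) (hs : sh s.val = t) : cv z a s ≠ 1 := by
  classical
  intro hs1
  -- the iterates of `w`
  have hit : ∀ i b, cv z a (w^[i] b) = cv z a b ^ q ^ i := by
    intro i
    induction i with
    | zero => intro b; simp
    | succ i ih =>
      intro b
      rw [Function.iterate_succ_apply', hwc, ih, ← pow_mul, pow_succ]
  have hits : ∀ i b, sh (w^[i] b).val = sh b.val := by
    intro i
    induction i with
    | zero => intro b; rfl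
    | succ i ih =>
      intro b
      rw [Function.iterate_succ_apply', hws, ih]
  have hord : ∀ b, cv z a b ≠ 1 → orderOf (cv z a b) = r := by
    intro b hb
    have : Fact r.Prime := ⟨hr⟩
    exact orderOf_eq_prime (cv_pow z a hz b) hb
  have hqr : q.Coprime r := by
    rw [Nat.coprime_comm, Nat.Prime.coprime_iff_not_dvd hr]
    intro hd
    have := hq 1 (by norm_num) 2 (by norm_num) (by
      have e1 : q ^ 1 ≡ 0 [MOD r] := (Nat.modEq_zero_iff_dvd).2 (dvd_pow hd one_ne_zero)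
      have e2 : q ^ 2 ≡ 0 [MOD r] := (Nat.modEq_zero_iff_dvd).2 (dvd_pow hd two_ne_zero)
      exact e1.trans e2.symm)
    omega
  have hdist : ∀ b, cv z a b ≠ 1 → ∀ i < 12, ∀ j < 12, cv z a b ^ q ^ i = cv z a b ^ q ^ j → i = j := by
    intro b hb i hi j hj h
    apply hq i hi j hj
    rw [pow_eq_pow_iff_modEq, hord b hb] at h
    exact h
  set S : Finset (Fin 48) := Finset.univ.filter fun b => sh b.val = t ∧ cv z a b ≠ 1 with hS
  set Z : Finset (Fin 48) := Finset.univ.filter fun b => sh b.val = t ∧ cv z a b = 1 with hZ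
  have hSZ : S.card + Z.card = 24 := by
    have h1 : S ∪ Z = Finset.univ.filter fun b : Fin 48 => sh b.val = t := by
      ext b
      simp only [hS, hZ, Finset.mem_union, Finset.mem_filter, Finset.mem_univ, true_and]
      tauto
    have h2 : Disjoint S Z := by
      rw [Finset.disjoint_left]
      intro b hb hb'
      rw [hS, Finset.mem_filter] at hb
      rw [hZ, Finset.mem_filter] at hb'
      exact hb.2.2 hb'.2.2
    rw [← Finset.card_union_of_disjoint h2, h1, sh_card]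
  have hZs : 1 ≤ Z.card := Finset.card_pos.2 ⟨s, by rw [hZ, Finset.mem_filter]; exact ⟨Finset.mem_univ _, hs, hs1⟩⟩
  -- there is a nontrivial value
  obtain ⟨b₀, hb₀, hb₀'⟩ : ∃ b : Fin 48, sh b.val = t ∧ cv z a b ≠ 1 := by
    by_contra hcon
    push Not at hcon
    obtain ⟨s', hs'⟩ := hne
    exact hs' (cv_one_of z a hz hr2 hcon s')
  have hSm : ∀ b : Fin 48, sh b.val = t → cv z a b ≠ 1 → ∀ i, w^[i] b ∈ S := by
    intro b hb hb' i
    rw [hS, Finset.mem_filter]
    refine ⟨Finset.mem_univ _, by rw [hits, hb], ?_⟩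
    rw [hit]
    intro h
    have h1 := orderOf_dvd_of_pow_eq_one h
    rw [hord b hb'] at h1
    have h2 := Nat.Prime.dvd_of_dvd_pow hr h1
    have h3 := Nat.Coprime.eq_one_of_dvd hqr.symm h2
    exact hr.one_lt.ne' h3
  have h12 : 12 ≤ S.card := by
    have h1 : (Finset.range 12).card ≤ S.card := by
      refine Finset.card_le_card_of_injOn (fun i => w^[i] b₀) (fun i _ => hSm b₀ hb₀ hb₀' i) ?_
      intro i hi j hj h
      rw [Finset.mem_coe, Finset.mem_range] at hi hj
      apply hdist b₀ hb₀' i hi j hj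
      have h2 := congrArg (cv z a) h
      simp only [hit] at h2
      exact h2
    rwa [Finset.card_range] at h1
  -- `c` is injective on `S`
  have hinj : ∀ b b' : Fin 48, sh b.val = t → sh b'.val = t → b ≠ b' → cv z a b = cv z a b' → cv z a b = 1 := by
    intro b b' hb hb' hbb h
    by_contra hb1
    have hb1' : cv z a b' ≠ 1 := by rwa [← h]
    have h1 : (Finset.range 12 ×ˢ ({b, b'} : Finset (Fin 48))).card ≤ S.card := by
      refine Finset.card_le_card_of_injOn (fun p => w^[p.1] p.2) ?_ ?_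
      · rintro ⟨i, c⟩ hp
        rw [Finset.mem_coe, Finset.mem_product, Finset.mem_insert, Finset.mem_singleton] at hp
        rcases hp.2 with h2 | h2
        · change c = b at h2
          rw [h2]
          exact hSm b hb hb1 i
        · change c = b' at h2
          rw [h2]
          exact hSm b' hb' hb1' i
      · rintro ⟨i, c⟩ hp ⟨j, c'⟩ hp' h3
        rw [Finset.mem_coe, Finset.mem_product, Finset.mem_range, Finset.mem_insert, Finset.mem_singleton] at hp hp'
        change i < 12 ∧ (c = b ∨ c = b') at hp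
        change j < 12 ∧ (c' = b ∨ c' = b') at hp'
        have h3' : w^[i] c = w^[j] c' := h3
        have hc : cv z a c = cv z a b := by
          rcases hp.2 with h4 | h4
          · rw [h4]
          · rw [h4, h]
        have hc' : cv z a c' = cv z a b := by
          rcases hp'.2 with h4 | h4
          · rw [h4]
          · rw [h4, h]
        have h4 := congrArg (cv z a) h3'
        rw [hit, hit, hc, hc'] at h4
        have h5 := hdist b hb1 i hp.1 j hp'.1 h4
        subst h5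
        have h6 := (hwi.iterate i) h3'
        rw [h6]
    rw [Finset.card_product, Finset.card_range, Finset.card_pair hbb] at h1
    omega
  -- the neighbours of `s` are in the kernel
  have hN : (Finset.univ.filter fun b : Fin 48 => nb s b = true) ⊆ Z := by
    intro b hb
    rw [Finset.mem_filter] at hb
    have h1 := hb.2
    unfold nb at h1
    rw [Bool.and_eq_true, beq_iff_eq, List.any_eq_true] at h1
    obtain ⟨h2, c, -, h3⟩ := h1
    rw [Bool.and_eq_true, Bool.and_eq_true, beq_iff_eq, Bool.or_eq_true] at h3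
    obtain ⟨⟨h4, h5⟩, h6⟩ := h3
    have h7 : c ≠ b := by
      intro h
      rw [h] at h5
      simp at h5
    rw [hZ, Finset.mem_filter]
    refine ⟨Finset.mem_univ _, by rw [h2, hs], ?_⟩
    refine hinj b c (by rw [h2, hs]) (by rw [h4, hs]) h7.symm ?_
    rcases h6 with h6 | h6
    · rw [cv_add z a h6, hs1, mul_one]
    · rw [cv_add z a h6, hs1, mul_one]
  have h13 := (nb_card s).trans (Finset.card_le_card hN)
  omega

/-! ### the Frobenius map -/

variable {F : Type u} [Field F]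

theorem emb_comp (f : F →+* K) (φ : K →+* K) (x : ↥(chevF4.group F)) :
    emb hF4 φ (emb hF4 f x) = emb hF4 (φ.comp f) x := by
  apply Subtype.ext
  apply Units.ext
  rw [coe_emb, coe_glMap, coe_emb, coe_glMap, coe_emb, coe_glMap, Matrix.map_map]
  rfl

/-- The Frobenius map gives an element of the Weyl group. -/
theorem frob [DecidableEq K] {x : ↥(chevF4.group F)} {m : ℕ} {f : F →+* K} {g : ↥(chevF4.group K)} {z : Kˣ}
    {a : Fin 4 → ℕ} (h : DV x m K f g z a) {q : ℕ} (φ : K →+* K) (hφ : ∀ y, φ y = y ^ q) (hf : φ.comp f = f) :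
    ∃ w : Fin 48 → Fin 48, Function.Injective w ∧ (∀ s, sh (w s).val = sh s.val) ∧
      ∀ s, cv z a (w s) = cv z a s ^ q := by
  set t := g * emb hF4 f x * g⁻¹ with ht
  set y' := emb hF4 φ g * g⁻¹ with hy'
  have hval : ∀ s : Fin 48, ((t : GL chevF4.Idx K) : Matrix chevF4.Idx chevF4.Idx K) (Sum.inr s) (Sum.inr s) =
      ((cv z a s : Kˣ) : K) := by
    intro s
    rw [h.mat]
    exact Matrix.diagonal_apply_eq _ _
  have h0 : emb hF4 φ t = t ^ q := by
    apply Subtype.ext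
    apply Units.ext
    rw [coe_emb, coe_glMap, Subgroup.coe_pow, Units.val_pow_eq_pow_val, h.mat, Matrix.diagonal_pow]
    ext i j
    rw [Matrix.map_apply]
    by_cases hij : i = j
    · subst hij
      rw [Matrix.diagonal_apply_eq, Matrix.diagonal_apply_eq, hφ, Pi.pow_apply]
    · rw [Matrix.diagonal_apply_ne _ hij, Matrix.diagonal_apply_ne _ hij, map_zero]
  have h1 : y' * t * y'⁻¹ = t ^ q := by
    rw [← h0, ht, map_mul, map_mul, map_inv, emb_comp, hf, hy']
    group
  have htT : (t : GL chevF4.Idx K) ∈ chevF4.diagonalSubgroup K := h.tor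
  have ht2T : ((t ^ q : ↥(chevF4.group K)) : GL chevF4.Idx K) ∈ chevF4.diagonalSubgroup K := by
    rw [Subgroup.coe_pow]
    exact pow_mem htT q
  obtain ⟨n, hn, hc⟩ := Cfsg.Agent.S1046.result (F := K) chevF4 hF4 (t : GL chevF4.Idx K)
    ((t ^ q : ↥(chevF4.group K)) : GL chevF4.Idx K) (y' : GL chevF4.Idx K) htT ht2T y'.2 (by
      rw [← h1]; rfl)
  -- the inverse permutation
  set w := permHom hF4 K ⟨n, hn⟩ with hw
  have hchi : ∀ s : Fin chevF4.nroots, chi chevF4 K (t : GL chevF4.Idx K) s = ((cv z a s : Kˣ) : K) := by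
    intro s
    unfold chi
    rw [dif_pos s.2]
    exact hval s
  have hchi2 : ∀ s : Fin chevF4.nroots, chi chevF4 K ((t ^ q : ↥(chevF4.group K)) : GL chevF4.Idx K) s =
      ((cv z a s : Kˣ) : K) ^ q := by
    intro s
    unfold chi
    rw [dif_pos s.2]
    show (((t ^ q : ↥(chevF4.group K)) : GL chevF4.Idx K) : Matrix chevF4.Idx chevF4.Idx K) (Sum.inr s) (Sum.inr s) = _
    rw [Subgroup.coe_pow, Units.val_pow_eq_pow_val, h.mat, Matrix.diagonal_pow, Matrix.diagonal_apply_eq,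
      Pi.pow_apply]
    rfl
  have hv : ∀ s : Fin chevF4.nroots, (cv z a (w s)) ^ q = cv z a s := by
    intro s
    have h2 := Cfsg.Agent.H3.OT.chi_perm hF4 (⟨n, hn⟩ : ↥(chevF4.monomialSubgroup K)) htT s
    rw [show ((⟨n, hn⟩ : ↥(chevF4.monomialSubgroup K)) : GL chevF4.Idx K) = n from rfl, hc, hchi2, hchi] at h2
    apply Units.ext
    rw [Units.val_pow_eq_pow_val]
    exact h2
  have k1 : ∀ s : Fin chevF4.nroots, sh (w.symm s).val = sh s.val := by
    intro s
    have h3 := sh_perm (K := K) ⟨n, hn⟩ (w.symm s)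
    rw [← hw, w.apply_symm_apply] at h3
    exact h3.symm
  have k2 : ∀ s : Fin chevF4.nroots, cv z a (w.symm s) = cv z a s ^ q := by
    intro s
    have h3 := hv (w.symm s)
    rw [w.apply_symm_apply] at h3
    exact h3.symm
  exact ⟨fun s => w.symm s, w.symm.injective, k1, k2⟩

/-! ### arithmetic -/

theorem z2 : ∀ Q : ZMod 2, Q ^ 4 - Q ^ 2 + 1 ≠ 0 := by decide

theorem z3 : ∀ Q : ZMod 3, Q ^ 4 - Q ^ 2 + 1 ≠ 0 := by decide

theorem arith {r q : ℕ} (hr : r.Prime) (h : r ∣ q ^ 4 - q ^ 2 + 1) :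
    r.Coprime 2 ∧ ∀ i < 12, ∀ j < 12, q ^ i ≡ q ^ j [MOD r] → i = j := by
  have : Fact r.Prime := ⟨hr⟩
  have hle : q ^ 2 ≤ q ^ 4 := by
    rcases Nat.eq_zero_or_pos q with rfl | hq
    · norm_num
    · exact Nat.pow_le_pow_right hq (by norm_num)
  -- the equation in `ZMod r`
  have h1 : ((q : ZMod r)) ^ 4 - (q : ZMod r) ^ 2 + 1 = 0 := by
    have h2 := (ZMod.natCast_eq_zero_iff (q ^ 4 - q ^ 2 + 1) r).2 h
    rw [Nat.cast_add, Nat.cast_sub hle] at h2
    push_cast at h2
    exact h2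
  set Q : ZMod r := (q : ZMod r) with hQ
  have hQ0 : Q ≠ 0 := by
    intro h2
    rw [h2] at h1
    norm_num at h1
  have h6 : Q ^ 6 = -1 := by linear_combination (Q ^ 2 + 1) * h1
  have h12 : Q ^ 12 = 1 := by
    have : Q ^ 12 = (Q ^ 6) ^ 2 := by ring
    rw [this, h6]
    ring
  have hr2 : r ≠ 2 := by
    intro h2
    subst h2
    exact z2 Q h1
  have hr3 : r ≠ 3 := by
    intro h2
    subst h2
    exact z3 Q h1
  have hn6 : Q ^ 6 ≠ 1 := by
    intro h2
    have h3 : (2 : ZMod r) = 0 := by linear_combination h6 - h2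
    have h4 : ((2 : ℕ) : ZMod r) = 0 := by exact_mod_cast h3
    rw [ZMod.natCast_eq_zero_iff] at h4
    exact hr2 ((Nat.prime_dvd_prime_iff_eq hr Nat.prime_two).1 h4)
  have hn4 : Q ^ 4 ≠ 1 := by
    intro h2
    have h5 : Q ^ 2 = 2 := by linear_combination -h1 + h2
    have h3 : (3 : ZMod r) = 0 := by linear_combination h2 - (Q ^ 2 + 2) * h5
    have h4 : ((3 : ℕ) : ZMod r) = 0 := by exact_mod_cast h3
    rw [ZMod.natCast_eq_zero_iff] at h4
    exact hr3 ((Nat.prime_dvd_prime_iff_eq hr Nat.prime_three).1 h4)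
  have hord : orderOf Q = 12 := by
    have hd := orderOf_dvd_of_pow_eq_one h12
    have h2 : ¬ orderOf Q ∣ 6 := fun h => hn6 (orderOf_dvd_iff_pow_eq_one.1 h)
    have h3 : ¬ orderOf Q ∣ 4 := fun h => hn4 (orderOf_dvd_iff_pow_eq_one.1 h)
    have h4 : orderOf Q ≤ 12 := Nat.le_of_dvd (by norm_num) hd
    interval_cases orderOf Q <;> revert hd h2 h3 <;> decide
  refine ⟨(Nat.coprime_primes hr Nat.prime_two).2 hr2, fun i hi j hj h2 => ?_⟩
  have h3 : Q ^ i = Q ^ j := by
    have h4 := (ZMod.natCast_eq_natCast_iff (q ^ i) (q ^ j) r).2 h2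
    push_cast at h4
    exact h4
  wlog hij : i ≤ j generalizing i j
  · exact (this j hj i hi h2.symm h3.symm (by omega)).symm
  obtain ⟨k, rfl⟩ := Nat.exists_eq_add_of_le hij
  rw [pow_add] at h3
  have h4 : Q ^ k = 1 := by
    have h5 : Q ^ i * Q ^ k = Q ^ i * 1 := by rw [mul_one]; exact h3.symm
    exact mul_left_cancel₀ (pow_ne_zero i hQ0) h5
  have h5 := orderOf_dvd_of_pow_eq_one h4
  rw [hord] at h5
  rcases Nat.eq_zero_or_pos k with h6 | h6
  · omega
  · have := Nat.le_of_dvd h6 h5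
    omega

/-! ### the result -/

/-- elements of prime order -/
theorem ev_prime {F : Type u} [Field F] [Fintype F] [CharP F 2] {q : ℕ} (hF : Fintype.card F = q)
    {x : ↥(chevF4.group F)} (hx1 : x ≠ 1) {r : ℕ} (hr : r.Prime) (hxr : x ^ r = 1) (hrq : r ∣ q ^ 4 - q ^ 2 + 1)
    (b : Bool) : ev (Two.rhoT b x) 1 = 2 := by
  classical
  obtain ⟨hr2, hd⟩ := arith hr hrq
  obtain ⟨K, _, _, f, g, z, a, h⟩ := exists_dv hr.ne_zero hr2 hxr
  have : Fact (Nat.Prime 2) := ⟨Nat.prime_two⟩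
  have hK2 : CharP K 2 := charP_of_injective_ringHom f.injective 2
  obtain ⟨e, -, he⟩ := FiniteField.card F 2
  rw [hF] at he
  have hexp : ExpChar K 2 := ExpChar.prime Nat.prime_two
  let φ : K →+* K := iterateFrobenius K 2 e
  have hφ : ∀ y, φ y = y ^ q := by
    intro y
    rw [he]
    exact iterateFrobenius_def 2 _ y
  have hf : φ.comp f = f := by
    ext y
    rw [RingHom.comp_apply, hφ, ← map_pow, ← hF, FiniteField.pow_card]
  obtain ⟨w, hwi, hws, hwc⟩ := frob h φ hφ hf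
  have hne : ∃ s, cv z a s ≠ 1 := by
    by_contra hcon
    push Not at hcon
    apply hx1
    have ht1 : g * emb hF4 f x * g⁻¹ = 1 := by
      apply Subtype.ext
      apply Units.ext
      rw [h.mat, Subgroup.coe_one, Units.val_one, ← Matrix.diagonal_one]
      congr 1
      funext i
      rcases i with i | i
      · rfl
      · exact congrArg Units.val (hcon i)
    have hx1' : emb hF4 f x = 1 := conj_eq_one_iff.1 ht1
    exact emb_injective hF4 f (by rw [hx1', map_one])
  have hc := core z a h.ord hr hr2 hd w hwi hws hwc hne b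
  rw [Two.ev_block f x g _ h.mat b]
  have h0 : (Finset.univ.filter fun s : Fin chevF4.nroots => sh s.val = b ∧
      ((val z a (rowsL.getD s.val (8, 8, 8, 8)) : Kˣ) : K) = 1) = ∅ := by
    rw [Finset.filter_eq_empty_iff]
    rintro s - ⟨h1, h2⟩
    exact hc s h1 (Units.ext h2)
  rw [h0, Finset.card_empty]

theorem es_pow {F V : Type*} [Field F] [AddCommGroup V] [Module F V] {G : Type*} [Group G]
    (ρ : Representation F G V) (x : G) (k : ℕ) :
    Module.End.eigenspace (ρ x) 1 ≤ Module.End.eigenspace (ρ (x ^ k)) 1 := by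
  intro v hv
  rw [Module.End.mem_eigenspace_iff, one_smul] at hv ⊢
  induction k with
  | zero => simp
  | succ k ih => rw [pow_succ, map_mul, Module.End.mul_apply, hv, ih]

theorem ev_pow {F V : Type*} [Field F] [AddCommGroup V] [Module F V] [Module.Finite F V] {G : Type*} [Group G]
    (ρ : Representation F G V) (x : G) (k : ℕ) : ev (ρ x) 1 ≤ ev (ρ (x ^ k)) 1 :=
  Submodule.finrank_mono (es_pow ρ x k)

/-- **The fixed vectors of an element of order dividing `q⁴ − q² + 1`.** -/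
theorem ev_two {F : Type u} [Field F] [Fintype F] [CharP F 2] {q : ℕ} (hF : Fintype.card F = q)
    {x : ↥(chevF4.group F)} (hx1 : x ≠ 1) (hx : x ^ (q ^ 4 - q ^ 2 + 1) = 1) (b : Bool) :
    ev (Two.rhoT b x) 1 = 2 := by
  have hd := orderOf_dvd_of_pow_eq_one hx
  have ho1 : orderOf x ≠ 1 := fun h => hx1 (orderOf_eq_one_iff.1 h)
  have ho0 : orderOf x ≠ 0 := by
    intro h
    rw [h] at hd
    have := Nat.eq_zero_of_zero_dvd hd
    omega
  obtain ⟨r, hr, hrx⟩ := Nat.exists_prime_and_dvd ho1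
  -- the lower bound
  have hm2 : (q ^ 4 - q ^ 2 + 1).Coprime 2 := by
    rw [Nat.coprime_comm, Nat.Prime.coprime_iff_not_dvd Nat.prime_two]
    intro h2
    have := (arith Nat.prime_two h2).1
    norm_num at this
  have hlow : 2 ≤ ev (Two.rhoT b x) 1 := by
    obtain ⟨K, _, _, f, g, z, a, h⟩ := exists_dv (m := q ^ 4 - q ^ 2 + 1) (by omega) hm2 hx
    rw [Two.ev_block f x g _ h.mat b]
    exact Nat.le_add_right _ _
  -- the upper bound
  have hy1 : x ^ (orderOf x / r) ≠ 1 := by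
    intro h
    have h1 := orderOf_dvd_of_pow_eq_one h
    have h2 : 0 < orderOf x / r := Nat.div_pos (Nat.le_of_dvd (Nat.pos_of_ne_zero ho0) hrx) hr.pos
    have h3 := Nat.le_of_dvd h2 h1
    have h4 : orderOf x / r < orderOf x := Nat.div_lt_self (Nat.pos_of_ne_zero ho0) hr.one_lt
    omega
  have hyr : (x ^ (orderOf x / r)) ^ r = 1 := by
    rw [← pow_mul, Nat.div_mul_cancel hrx, pow_orderOf_eq_one]
  have hup : ev (Two.rhoT b x) 1 ≤ 2 :=
    (ev_pow (Two.rhoT b) x (orderOf x / r)).trans (ev_prime hF hy1 hr hyr (hrx.trans hd) b).le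
  exact le_antisymm hup hlow

theorem exists_fix {F : Type u} [Field F] [Fintype F] [CharP F 2] {q : ℕ} (hF : Fintype.card F = q)
    {x : ↥(chevF4.group F)} (hx1 : x ≠ 1) (hx : x ^ (q ^ 4 - q ^ 2 + 1) = 1) (b : Bool) :
    ∃ v, v ≠ 0 ∧ Two.rhoT b x v = v := by
  have h := ev_two hF hx1 hx b
  unfold ev at h
  have h1 : Module.End.eigenspace (Two.rhoT b x) 1 ≠ ⊥ := by
    intro h2
    rw [h2, finrank_bot] at h
    exact absurd h (by norm_num)
  obtain ⟨v, hv, hv0⟩ := Submodule.exists_mem_ne_zero_of_ne_bot h1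
  rw [Module.End.mem_eigenspace_iff, one_smul] at hv
  exact ⟨v, hv0, hv⟩

end Cfsg.Agent.H39.F4E
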