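import Cfsg.Agent.H39.F4E.Two
import Cfsg.Agent.H39.F4E.FixX
import Cfsg.Agent.H56.Wei.Defs
import Cfsg.Agent.H56.Exc.BigRows
import Cfsg.Agent.H862.Spr.Rows

/-!
# S3938, row `F₄(q)`, `q ≥ 4` even (helper39)

`row_even` : the row from the overgroups of an element of order `q⁴ − q² + 1` (`OverF4`, helper824) and the fixed vectors
of the subgroups `³D₄(q)` (`FixTd4`, helper81).
-/

set_option autoImplicit false

namespace Cfsg.Agent.H39.F4E

open Cfsg Cfsg.Lie Module
open Cfsg.Agent.H952.F4 Cfsg.Agent.OrdDiv Cfsg.Agent.H436 Cfsg.Agent.H56.Wei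
open Cfsg.Agent.H424.Spr (Spr)
open Cfsg.Agent.H862.Spr (Row)

universe u

/-- the overgroups (helper824) -/
def OverF4 : Prop := ∀ {T : Type} [Group T] [Finite T] {q : ℕ}, 2 < q → IsNamed (.f4 q) T → ∀ x : T,
  orderOf x = q ^ 4 - q ^ 2 + 1 → Over x (fun g => g = .td4 q)

/-- the fixed vectors (helper81) -/
def FixTd4 : Prop := ∀ {F : Type} [Field F] [Fintype F] [CharP F 2] {q : ℕ}, Fintype.card F = q → 4 ≤ q →
  ∀ (x : ↥(chevF4.group F)), orderOf x = q ^ 4 - q ^ 2 + 1 → ∀ S : Subgroup ↥(chevF4.group F),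
    IsNamed (.td4 q) S → x ∈ S → ∃ b, ∀ g ∈ S, ∀ v, Two.rhoT b x v = v → Two.rhoT b g v = v

theorem named_td4 {q : ℕ} {S S' : Type u} [Group S] [Group S'] (e : S ≃* S') (h : IsNamed (.td4 q) S) :
    IsNamed (.td4 q) S' := by
  obtain ⟨⟨F, i1, i2, hF, ⟨f⟩⟩, hc, he, ho⟩ := h
  exact ⟨⟨F, i1, i2, hF, ⟨e.symm.trans f⟩⟩, hc, by rwa [← Nat.card_congr e.toEquiv],
    by rwa [← Nat.card_congr e.toEquiv]⟩

/-- an element of order `q⁴ − q² + 1` -/
theorem exists_elt {F : Type u} [Field F] [Fintype F] {q : ℕ} (hF : Fintype.card F = q) (hq : 2 ≤ q) :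
    ∃ x : ↥(chevF4.group F), orderOf x = q ^ 4 - q ^ 2 + 1 := by
  have hle : q ^ 2 ≤ q ^ 4 := Nat.pow_le_pow_right (by omega) (by norm_num)
  have h4 : q ^ 2 < q ^ 4 := Nat.pow_lt_pow_right (by omega) (by norm_num)
  obtain ⟨r, hr, hrm⟩ := Nat.exists_prime_and_dvd (n := q ^ 4 - q ^ 2 + 1) (by omega)
  have hm : ((q ^ 4 - q ^ 2 + 1 : ℕ) : ℤ) = 1 - (q : ℤ) ^ 2 + (q : ℤ) ^ 4 := by
    rw [Nat.cast_add, Nat.cast_sub hle]
    push_cast
    ring
  obtain ⟨T, hT, h1, h2, -, -⟩ := Cfsg.Agent.H129.CycCard.card_F4_12 hF hm hr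
    (by rw [← hm]; exact_mod_cast hrm)
  rw [one_mul] at h2
  have h3 := Nat.dvd_antisymm h1 h2
  obtain ⟨g, hg⟩ := IsCyclic.exists_generator (α := T)
  refine ⟨g, ?_⟩
  rw [Subgroup.orderOf_coe, orderOf_eq_card_of_forall_mem_zpowers hg, h3]

theorem even_card {F : Type u} [Field F] [Fintype F] {q : ℕ} (hF : Fintype.card F = q) (hev : Even q) :
    Even (Nat.card ↥(chevF4.group F)) := by
  have h := Cfsg.Agent.H56.Exc.ord_F4 hF
  have h1 : Even ((Nat.card ↥(chevF4.group F) : ℕ) : ℤ) := by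
    rw [h]
    have h2 : Even ((q : ℤ) ^ 24) := by
      have h3 : Even (q : ℤ) := by exact_mod_cast hev
      exact h3.pow_of_ne_zero (by norm_num)
    exact (((h2.mul_right _).mul_right _).mul_right _).mul_right _
  exact_mod_cast h1

theorem soc_of {T : Type*} [Group T] {K : Subgroup T} {S : Subgroup K} (hSn : S.Normal) (hSs : IsSimpleGroup S)
    (hScent : Subgroup.centralizer (S : Set K) = ⊥) : Soc K (S.map K.subtype) := by
  refine ⟨?_, ?_, ?_, ?_⟩
  · rintro _ ⟨s, -, rfl⟩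
    exact s.2
  · rintro k hk _ ⟨s, hs, rfl⟩
    exact ⟨⟨k, hk⟩ * s * ⟨k, hk⟩⁻¹, hSn.conj_mem s hs _, rfl⟩
  · let f : S ≃* S.map K.subtype := Subgroup.equivMapOfInjective S K.subtype K.subtype_injective
    have hnt : Nontrivial (S.map K.subtype) := f.injective.nontrivial
    exact IsSimpleGroup.isSimpleGroup_of_surjective f.toMonoidHom f.surjective
  · intro k hk h
    have h1 : (⟨k, hk⟩ : K) ∈ Subgroup.centralizer (S : Set K) := by
      rw [Subgroup.mem_centralizer_iff]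
      intro s hs
      apply Subtype.ext
      exact (h s ⟨s, hs, rfl⟩).symm
    rw [hScent, Subgroup.mem_bot] at h1
    exact congrArg Subtype.val h1

/-- the overgroups in the form of `spr_of_modules` -/
theorem over_soc {T : Type u} [Group T] {x : T} {q : ℕ} (h : Over x (fun g => g = .td4 q)) (K : Subgroup T)
    (hxK : x ∈ K) (hK : K ≠ ⊤) : K ≤ Subgroup.normalizer (Subgroup.zpowers x : Set T) ∨
      ∃ S : Subgroup T, Soc K S ∧ x ∈ S ∧ IsNamed (.td4 q) S := by
  rcases h K hxK hK with h | ⟨S, hSn, hSs, -, hScent, hxS, g, rfl, hg⟩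
  · exact Or.inl h
  · exact Or.inr ⟨S.map K.subtype, soc_of hSn hSs hScent, ⟨_, hxS, rfl⟩,
      named_td4 (Subgroup.equivMapOfInjective S K.subtype K.subtype_injective) hg⟩

/-- **Row `F₄(q)`, `q > 2` even.** -/
theorem row_even (hO : OverF4) (hX : FixTd4) {q : ℕ} (hev : Even q) (hq : 2 < q) : Row (.f4 q) := by
  intro T _ _ hsT hT
  obtain ⟨F, _, _, hF, ⟨e⟩⟩ := hT.real
  have hq4 : 4 ≤ q := by
    obtain ⟨k, hk⟩ := hev
    omega
  have hch : CharP F 2 := by
    obtain ⟨p, hp⟩ := CharP.exists F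
    have hpp : Fact p.Prime := ⟨CharP.char_is_prime F p⟩
    obtain ⟨n, -, hn⟩ := FiniteField.card F p
    have h2 : (2 : ℕ) ∣ p ^ (n : ℕ) := by
      rw [← hn, hF]
      exact hev.two_dvd
    have h3 := (Nat.prime_dvd_prime_iff_eq Nat.prime_two hpp.out).1 (Nat.prime_two.dvd_of_dvd_pow h2)
    rwa [h3]
  refine Spr.congr e.symm ?_
  have hsimp : IsSimpleGroup ↥(chevF4.group F) := by
    have := hsT
    have hnt : Nontrivial ↥(chevF4.group F) := e.injective.nontrivial
    exact IsSimpleGroup.isSimpleGroup_of_surjective e.toMonoidHom e.surjective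
  have hfin : Finite ↥(chevF4.group F) := Finite.of_equiv T e.toEquiv
  obtain ⟨x, hx⟩ := exists_elt (F := F) hF (by omega)
  have hle : q ^ 2 ≤ q ^ 4 := Nat.pow_le_pow_right (by omega) (by norm_num)
  have hlt : q ^ 2 < q ^ 4 := Nat.pow_lt_pow_right (by omega) (by norm_num)
  have hx1 : x ≠ 1 := by
    intro h
    rw [h, orderOf_one] at hx
    omega
  have hxm : x ^ (q ^ 4 - q ^ 2 + 1) = 1 := by rw [← hx, pow_orderOf_eq_one]
  have hna : ∃ a b : ↥(chevF4.group F), a * b ≠ b * a := by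
    by_contra hcon
    push Not at hcon
    have hn : (Subgroup.zpowers x).Normal := ⟨fun n hn g => by
      rw [hcon g n, mul_inv_cancel_right]
      exact hn⟩
    rcases hn.eq_bot_or_eq_top with h | h
    · exact hx1 (Subgroup.zpowers_eq_bot.1 h)
    · have h1 : Nat.card ↥(chevF4.group F) = q ^ 4 - q ^ 2 + 1 := by
        rw [← hx, ← Nat.card_zpowers, h, Subgroup.card_top]
      have h2 := even_card hF hev
      rw [h1] at h2
      have h3 : Even (q ^ 4 - q ^ 2) := (Nat.even_sub hle).2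
        (iff_of_true (hev.pow_of_ne_zero (by norm_num)) (hev.pow_of_ne_zero (by norm_num)))
      have h4 : Odd (q ^ 4 - q ^ 2 + 1) := h3.add_one
      exact (Nat.not_even_iff_odd.2 h4) h2
  have hinv : ∀ b, (Two.rhoT (K := F) b).invariants = ⊥ := by
    intro b
    rw [eq_bot_iff]
    intro v hv
    rw [Representation.mem_invariants] at hv
    exact (Submodule.mem_bot F).2 (Two.inv_zero hv)
  have hnamed : IsNamed (.f4 q) ↥(chevF4.group F) := by
    obtain ⟨-, hc, he, ho⟩ := hT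
    exact ⟨⟨F, inferInstance, inferInstance, hF, ⟨MulEquiv.refl _⟩⟩, hc, by rwa [← Nat.card_congr e.toEquiv],
      by rwa [← Nat.card_congr e.toEquiv]⟩
  refine spr_of_modules hna (Two.rhoT true) (Two.rhoT false) hx1 (hinv true) (hinv false)
    (exists_fix hF hx1 hxm true) (exists_fix hF hx1 hxm false) ?_
  intro K hxK hK
  rcases over_soc (hO hq hnamed x hx) K hxK hK with h | ⟨S, h1, h2, h3⟩
  · exact Or.inl h
  · obtain ⟨b, hb⟩ := hX hF hq4 x hx S h3 h2
    refine Or.inr ⟨S, h1, h2, ?_⟩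
    cases b
    · exact Or.inr hb
    · exact Or.inl hb

end Cfsg.Agent.H39.F4E
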