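import Cfsg.Agent.H424.Spr.Two

/-!
# 3/2-generation: a criterion with two modules (helper39, for S3938, row `F₄(q)`, `q` even)

`spr_of_modules` : every proper overgroup of `x` normalises `⟨x⟩`, or has a simple normal subgroup `S ∋ x` with trivial
centraliser which acts trivially on the fixed vectors of `x` in one of two modules.
-/

set_option autoImplicit false

namespace Cfsg.Agent.H39.F4E

open Cfsg.Agent.H424.Spr

open scoped Pointwise

section

variable {L : Type*} [Group L] {F : Type*} [Field F] {V : Type*} [AddCommGroup V] [Module F V]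

/-- the stabiliser of the space of fixed vectors of `x` -/
def St (ρ : Representation F L V) (x : L) : Subgroup L where
  carrier := {g | ∀ v, ρ x v = v ↔ ρ x (ρ g v) = ρ g v}
  one_mem' := fun v => by simp
  mul_mem' := by
    intro a b ha hb v
    rw [hb v, ha (ρ b v), map_mul, Module.End.mul_apply]
  inv_mem' := by
    intro a ha v
    have h := ha (ρ a⁻¹ v)
    rw [← Module.End.mul_apply (ρ a) (ρ a⁻¹), ← map_mul, mul_inv_cancel, map_one, Module.End.one_apply] at h
    exact h.symm

theorem mem_St {ρ : Representation F L V} {x g : L} :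
    g ∈ St ρ x ↔ ∀ v, ρ x v = v ↔ ρ x (ρ g v) = ρ g v := Iff.rfl

theorem self_mem (ρ : Representation F L V) (x : L) : x ∈ St ρ x := by
  intro v
  constructor
  · intro h
    rw [h, h]
  · intro h
    have h1 := congrArg (ρ x⁻¹) h
    rwa [← Module.End.mul_apply, ← map_mul, inv_mul_cancel, map_one, Module.End.one_apply,
      ← Module.End.mul_apply (ρ x⁻¹), ← map_mul, inv_mul_cancel, map_one, Module.End.one_apply] at h1

/-- `K` normalises a subgroup `S ∋ x` acting trivially on the fixed vectors of `x` -/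
theorem le_St {ρ : Representation F L V} {x : L} {K S : Subgroup L} (hS : ∀ k ∈ K, ∀ s ∈ S, k * s * k⁻¹ ∈ S)
    (hx : x ∈ S) (hf : ∀ s ∈ S, ∀ v, ρ x v = v → ρ s v = v) : K ≤ St ρ x := by
  intro k hk v
  have key : ∀ k ∈ K, ∀ v, ρ x v = v → ρ x (ρ k v) = ρ k v := by
    intro k hk v hv
    have h1 := hf _ (hS k⁻¹ (K.inv_mem hk) x hx) v hv
    have h2 := congrArg (ρ k) h1
    rw [← Module.End.mul_apply, ← map_mul] at h2
    have h3 : k * (k⁻¹ * x * k⁻¹⁻¹) = x * k := by group
    rw [h3, map_mul, Module.End.mul_apply] at h2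
    exact h2
  refine ⟨key k hk v, fun h => ?_⟩
  have h1 := key k⁻¹ (K.inv_mem hk) _ h
  rwa [← Module.End.mul_apply (ρ k⁻¹), ← map_mul, inv_mul_cancel, map_one, Module.End.one_apply] at h1

theorem norm_le_St {ρ : Representation F L V} {x : L} {K : Subgroup L}
    (hK : K ≤ Subgroup.normalizer (Subgroup.zpowers x : Set L)) : K ≤ St ρ x := by
  refine le_St (S := Subgroup.zpowers x) ?_ (Subgroup.mem_zpowers x) ?_
  · intro k hk s hs
    exact (Subgroup.mem_normalizer_iff.1 (hK hk) s).1 hs
  · rintro s hs v hv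
    -- the subgroup fixing `v`
    let A : Subgroup L :=
      { carrier := {g | ρ g v = v}
        one_mem' := by simp
        mul_mem' := by
          intro a b ha hb
          change ρ (a * b) v = v
          rw [map_mul, Module.End.mul_apply, hb, ha]
        inv_mem' := by
          intro a ha
          change ρ a⁻¹ v = v
          have h2 : ρ a v = v := ha
          conv_lhs => rw [← h2]
          rw [← Module.End.mul_apply, ← map_mul, inv_mul_cancel, map_one, Module.End.one_apply] }
    have h2 : Subgroup.zpowers x ≤ A := by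
      rw [Subgroup.zpowers_le]
      exact hv
    exact h2 hs

end

/-- `S` is a simple normal subgroup of `K` with trivial centraliser in `K` -/
structure Soc {L : Type*} [Group L] (K S : Subgroup L) : Prop where
  le : S ≤ K
  norm : ∀ k ∈ K, ∀ s ∈ S, k * s * k⁻¹ ∈ S
  simple : IsSimpleGroup S
  cent : ∀ k ∈ K, (∀ s ∈ S, k * s = s * k) → k = 1

theorem Soc.unique {L : Type*} [Group L] {K S T : Subgroup L} (h : Soc K S) (h' : Soc K T) : S ≤ T := by
  have hS := h.simple
  have hn : (T.subgroupOf S).Normal := by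
    refine ⟨fun t ht s => ?_⟩
    rw [Subgroup.mem_subgroupOf] at ht ⊢
    exact h'.norm _ (h.le s.2) _ ht
  rcases hn.eq_bot_or_eq_top with h1 | h1
  · exfalso
    -- `S` and `T` commute
    have h2 : ∀ t ∈ T, t = 1 := by
      intro t ht
      refine h.cent t (h'.le ht) fun s hs => ?_
      have h3 : t * s * t⁻¹ * s⁻¹ ∈ S := S.mul_mem (h.norm t (h'.le ht) s hs) (S.inv_mem hs)
      have h4 : t * s * t⁻¹ * s⁻¹ ∈ T := by
        have h5 : s * t⁻¹ * s⁻¹ ∈ T := h'.norm s (h.le hs) _ (T.inv_mem ht)
        have h6 : t * s * t⁻¹ * s⁻¹ = t * (s * t⁻¹ * s⁻¹) := by group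
        rw [h6]
        exact T.mul_mem ht h5
      have h5 : (⟨_, h3⟩ : S) ∈ T.subgroupOf S := h4
      rw [h1, Subgroup.mem_bot] at h5
      have h6 : t * s * t⁻¹ * s⁻¹ = 1 := congrArg Subtype.val h5
      have h7 := mul_inv_eq_one.1 h6
      exact mul_inv_eq_iff_eq_mul.1 h7
    obtain ⟨a, b, hab⟩ := h'.simple.exists_pair_ne
    exact hab (Subtype.ext ((h2 a a.2).trans (h2 b b.2).symm))
  · exact Subgroup.subgroupOf_eq_top.1 h1

section main

variable {L : Type*} [Group L] [IsSimpleGroup L] [Finite L] {F : Type*} [Field F] {V W : Type*} [AddCommGroup V]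
  [Module F V] [Finite V] [AddCommGroup W] [Module F W] [Finite W]

omit [Finite L] [Finite V] in
theorem St_ne_top {ρ : Representation F L V} {x : L} (hx : x ≠ 1) (hinv : ρ.invariants = ⊥)
    (h0 : ∃ v, v ≠ 0 ∧ ρ x v = v) : St ρ x ≠ ⊤ := by
  intro htop
  obtain ⟨v, hv0, hv⟩ := h0
  let A : Subgroup L :=
    { carrier := {g | ∀ v, ρ x v = v → ρ g v = v}
      one_mem' := fun v _ => by simp
      mul_mem' := by
        intro a b ha hb v hv
        rw [map_mul, Module.End.mul_apply, hb v hv, ha v hv]
      inv_mem' := by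
        intro a ha v hv
        conv_lhs => rw [← ha v hv]
        rw [← Module.End.mul_apply, ← map_mul, inv_mul_cancel, map_one, Module.End.one_apply] }
  have hA : A.Normal := by
    refine ⟨fun a ha g v hv => ?_⟩
    have hg : g⁻¹ ∈ St ρ x := by rw [htop]; trivial
    have h1 := ha (ρ g⁻¹ v) ((hg v).1 hv)
    rw [map_mul, map_mul, Module.End.mul_apply, Module.End.mul_apply, h1, ← Module.End.mul_apply, ← map_mul,
      mul_inv_cancel, map_one, Module.End.one_apply]
  rcases hA.eq_bot_or_eq_top with h | h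
  · have hxA : x ∈ A := fun v hv => hv
    rw [h, Subgroup.mem_bot] at hxA
    exact hx hxA
  · apply hv0
    have h1 : v ∈ ρ.invariants := by
      rw [Representation.mem_invariants]
      intro g
      have hg : g ∈ A := by rw [h]; trivial
      exact hg v hv
    rw [hinv] at h1
    exact (Submodule.mem_bot F).1 h1

omit [Finite W] in
/-- **The criterion with two modules.** -/
theorem spr_of_modules (hna : ∃ x y : L, x * y ≠ y * x) (ρ : Representation F L V) (σ : Representation F L W) {x : L}
    (hx : x ≠ 1) (hρ : ρ.invariants = ⊥) (hσ : σ.invariants = ⊥) (h1 : ∃ v, v ≠ 0 ∧ ρ x v = v)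
    (h2 : ∃ v, v ≠ 0 ∧ σ x v = v)
    (hK : ∀ K : Subgroup L, x ∈ K → K ≠ ⊤ → K ≤ Subgroup.normalizer (Subgroup.zpowers x : Set L) ∨
      ∃ S : Subgroup L, Soc K S ∧ x ∈ S ∧ ((∀ s ∈ S, ∀ v, ρ x v = v → ρ s v = v) ∨
        ∀ s ∈ S, ∀ v, σ x v = v → σ s v = v)) : Spr L := by
  have ht1 := St_ne_top hx hρ h1
  have ht2 := St_ne_top hx hσ h2
  refine spr_of_two' hna (s := x) (M₁ := St ρ x) (M₂ := St σ x) ht1 ht2 ?_ ?_
  · intro y hy
    by_contra hne
    have hcard : Nat.card (St ρ x) = Nat.card (St σ x) := by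
      rw [← hy]
      exact Nat.card_congr (Subgroup.equivSMul (c y) (St ρ x)).toEquiv
    have hn1 : ¬ St ρ x ≤ St σ x := fun h => hne (Subgroup.eq_of_le_of_card_ge h hcard.ge)
    have hn2 : ¬ St σ x ≤ St ρ x := fun h => hne (Subgroup.eq_of_le_of_card_ge h hcard.le).symm
    obtain ⟨S₁, s1, hx1, f1⟩ := (hK _ (self_mem ρ x) ht1).resolve_left fun h => hn1 (norm_le_St h)
    obtain ⟨S₂, s2, hx2, f2⟩ := (hK _ (self_mem σ x) ht2).resolve_left fun h => hn2 (norm_le_St h)
    have g1 := f1.resolve_right fun h => hn1 (le_St s1.norm hx1 h)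
    -- the conjugate of `S₁`
    have s3 : Soc (St σ x) (c y • S₁) := by
      refine ⟨?_, ?_, ?_, ?_⟩
      · rw [← hy]
        exact Subgroup.pointwise_smul_le_pointwise_smul_iff.2 s1.le
      · rw [← hy]
        rintro _ ⟨k, hk, rfl⟩ _ ⟨s, hs, rfl⟩
        refine ⟨k * s * k⁻¹, s1.norm k hk s hs, ?_⟩
        change c y (k * s * k⁻¹) = c y k * c y s * (c y k)⁻¹
        rw [map_mul, map_mul, map_inv]
      · have hs1 := s1.simple
        have hnt : Nontrivial (c y • S₁ : Subgroup L) := (Subgroup.equivSMul (c y) S₁).injective.nontrivial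
        exact IsSimpleGroup.isSimpleGroup_of_surjective (Subgroup.equivSMul (c y) S₁).toMonoidHom
          (Subgroup.equivSMul (c y) S₁).surjective
      · rw [← hy]
        rintro _ ⟨k, hk, rfl⟩ h
        have h3 : k = 1 := by
          refine s1.cent k hk fun s hs => ?_
          have h4 := h (c y s) ⟨s, hs, rfl⟩
          apply (c y).injective
          rw [map_mul, map_mul]
          exact h4
        change c y k = 1
        rw [h3, map_one]
    have e : c y • S₁ = S₂ := le_antisymm (s3.unique s2) (s2.unique s3)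
    -- the fixed vectors
    have hinv : ∀ a : L, ∀ v, ρ a (ρ a⁻¹ v) = v := by
      intro a v
      rw [← Module.End.mul_apply, ← map_mul, mul_inv_cancel, map_one, Module.End.one_apply]
    let X : Set V := {v | ρ x v = v}
    have hmap : ∀ v ∈ X, ρ y v ∈ X := by
      intro v hv
      have h3 : x ∈ c y • S₁ := by rw [e]; exact hx2
      obtain ⟨s, hs, hsx⟩ := h3
      have hsx' : y * s * y⁻¹ = x := hsx
      change ρ x (ρ y v) = ρ y v
      rw [← hsx', ← Module.End.mul_apply, ← map_mul, inv_mul_cancel_right, map_mul, Module.End.mul_apply, g1 s hs v hv]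
    have hbij : ∀ w ∈ X, ∃ v ∈ X, ρ y v = w := by
      have hinj : Function.Injective (fun v : X => (⟨ρ y v, hmap v v.2⟩ : X)) := by
        intro a b hab
        have h3 : ρ y a = ρ y b := congrArg Subtype.val hab
        have h4 := congrArg (ρ y⁻¹) h3
        rw [← Module.End.mul_apply, ← map_mul, inv_mul_cancel, map_one, Module.End.one_apply,
          ← Module.End.mul_apply (ρ y⁻¹), ← map_mul, inv_mul_cancel, map_one, Module.End.one_apply] at h4
        exact Subtype.ext h4
      have hsurj := Finite.surjective_of_injective hinj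
      intro w hw
      obtain ⟨v, hv⟩ := hsurj ⟨w, hw⟩
      exact ⟨v, v.2, congrArg Subtype.val hv⟩
    refine hn2 (le_St s2.norm hx2 ?_)
    rw [← e]
    rintro _ ⟨s, hs, rfl⟩ w hw
    obtain ⟨v, hv, rfl⟩ := hbij w hw
    change ρ (y * s * y⁻¹) (ρ y v) = ρ y v
    rw [← Module.End.mul_apply, ← map_mul, inv_mul_cancel_right, map_mul, Module.End.mul_apply, g1 s hs v hv]
  · intro K hxK hK1
    rcases hK K hxK hK1 with h | ⟨S, s, hxS, h | h⟩
    · exact Or.inl (norm_le_St h)
    · exact Or.inl (le_St s.norm hxS h)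
    · exact Or.inr (le_St s.norm hxS h)

end main

end Cfsg.Agent.H39.F4E
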